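import Cfsg.Agent.BlockNilp.DegreeCriterion
import Cfsg.Agent.BlockNilp.PSolvable

/-!
# Commuting Sylow subgroups and degrees in principal blocks
-/

set_option autoImplicit false
set_option linter.style.haveILetI false

namespace Cfsg.Agent.BlockNilp

open Cfsg Cfsg.Agent.Char

universe u

variable {G : Type u} [Group G] [Finite G] {p q : ℕ} [hp : Fact p.Prime] [hq : Fact q.Prime]

theorem sylow_le_of_not_dvd_card_quot (N : Subgroup G) [N.Normal]
    (h : ¬ q ∣ Nat.card (G ⧸ N)) (Q : Sylow q G) : (Q : Subgroup G) ≤ N := by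
  intro x hx
  rw [← QuotientGroup.eq_one_iff, ← orderOf_eq_one_iff]
  obtain ⟨k, hk⟩ := IsPGroup.iff_orderOf.mp Q.isPGroup' ⟨x, hx⟩
  rw [Subgroup.orderOf_mk] at hk
  refine Nat.eq_one_of_dvd_coprimes
    (((Nat.Prime.coprime_iff_not_dvd hq.out).mpr h).pow_left k) ?_ (orderOf_dvd_natCard _)
  exact hk ▸ orderOf_map_dvd (QuotientGroup.mk' N) x

/-- In a `p`-solvable group: commuting Sylow subgroups force `q'`-degrees in the block. -/
theorem not_dvd_degree_of_commute (hne : p ≠ q) (hps : IsPSolvable p G) (P : Sylow p G)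
    (Q : Sylow q G) (hc : ∀ x ∈ (P : Subgroup G), ∀ y ∈ (Q : Subgroup G), x * y = y * x)
    {M : Ideal AlgInt} (hM : IsPModular p M) (χ : IrrCharacter G)
    (hχ : χ ∈ principalBlock M G) : ¬ q ∣ charDegree (χ : G → ℂ) := by
  classical
  set X := pPrimeCore p G with hX
  let π := QuotientGroup.mk' X
  have hπ : Function.Surjective π := QuotientGroup.mk'_surjective X
  have hO : pPrimeCore p (G ⧸ X) = ⊥ := Cores.pPrimeCore_quotient_pPrimeCore_eq_bot
  have hC := PSolv.centralizer_pCore_le (PSolv.isPSolvable_quotient hps X) hO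
  have hle : pCore p (G ⧸ X) ≤ (P : Subgroup G).map π := by
    have h1 := (Cores.pCore_isPGroup (p := p) (G := G ⧸ X)).le_sylow_of_normal (P.mapSurjective hπ)
    rwa [show ((P.mapSurjective hπ : Sylow p (G ⧸ X)) : Subgroup (G ⧸ X)) = _ from
      P.coe_mapSurjective hπ] at h1
  have hQX : (Q : Subgroup G) ≤ X := by
    intro y hy
    have h1 : π y ∈ pCore p (G ⧸ X) := by
      refine hC (Subgroup.mem_centralizer_iff.mpr fun z hz => ?_)
      obtain ⟨x, hx, rfl⟩ := hle hz
      rw [← map_mul, ← map_mul, hc x hx y hy]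
    rw [← QuotientGroup.eq_one_iff, ← orderOf_eq_one_iff]
    obtain ⟨k, hk⟩ := IsPGroup.iff_orderOf.mp Q.isPGroup' ⟨y, hy⟩
    rw [Subgroup.orderOf_mk] at hk
    refine Nat.eq_one_of_dvd_coprimes
      ((coprime_pGroup hne (Cores.pCore_isPGroup (p := p) (G := G ⧸ X))).symm.pow_left k)
      (hk ▸ orderOf_map_dvd π y) ?_
    show orderOf (π y) ∣ _
    rw [← Subgroup.orderOf_mk _ h1]
    exact orderOf_dvd_natCard _
  have hidx : ¬ q ∣ Nat.card (G ⧸ X) := by
    rw [← Subgroup.index_eq_card]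
    exact fun h => Q.not_dvd_index (h.trans (Subgroup.index_dvd_of_le hQX))
  obtain ⟨ψ, hψ, hg⟩ := irr_exists_descend χ.2 X
    ((mem_principalBlock_iff_of_pSolvable hM hps χ).mp hχ)
  obtain ⟨d, -, hd, hdvd⟩ := irr_degree_dvd_card hψ
  have h2 : charDegree (χ : G → ℂ) = d := by
    rw [charDegree, hg 1, show ((1 : G) : G ⧸ X) = 1 from rfl, hd]
    simp
  exact fun h => hidx ((h2 ▸ h).trans hdvd)

/-- The degree condition puts the Sylow `q`-subgroups into the `p'`-core. -/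
theorem sylow_le_of_degrees (hne : p ≠ q) (hps : IsPSolvable p G) (hqs : IsPSolvable q G)
    {M : Ideal AlgInt} (hM : IsPModular p M)
    (h : ∀ χ : IrrCharacter G, χ ∈ principalBlock M G → ¬ p ∣ charDegree (χ : G → ℂ) →
      ¬ q ∣ charDegree (χ : G → ℂ)) (Q : Sylow q G) :
    (Q : Subgroup G) ≤ pPrimeCore p G := by
  set X := pPrimeCore p G with hX
  refine sylow_le_of_not_dvd_card_quot X ?_ Q
  refine not_dvd_card_of_degrees (PSolv.isPSolvable_quotient hps X)
    (PSolv.isPSolvable_quotient hqs X) Cores.pPrimeCore_quotient_pPrimeCore_eq_bot hne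
    (fun χ hd => ?_)
  let χ' : IrrCharacter G := ⟨fun g => (χ : G ⧸ X → ℂ) (QuotientGroup.mk' X g),
    isIrrCharacter_comp χ.2 _ (QuotientGroup.mk'_surjective X)⟩
  have h1 : χ' ∈ principalBlock M G := by
    rw [mem_principalBlock_iff_of_pSolvable hM hps]
    intro n hn
    show (χ : G ⧸ X → ℂ) _ = (χ : G ⧸ X → ℂ) _
    rw [map_one, show QuotientGroup.mk' X n = 1 from (QuotientGroup.eq_one_iff n).mpr hn]
  exact h χ' h1 hd

theorem commuting_sylows_iff (hne : p ≠ q) {Mp Mq : Ideal AlgInt} (hMp : IsPModular p Mp)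
    (hMq : IsPModular q Mq) (hps : IsPSolvable p G) (hqs : IsPSolvable q G) :
    ((∀ χ : IrrCharacter G, χ ∈ principalBlock Mp G → ¬ p ∣ charDegree (χ : G → ℂ) →
        ¬ q ∣ charDegree (χ : G → ℂ)) ∧
      (∀ χ : IrrCharacter G, χ ∈ principalBlock Mq G → ¬ q ∣ charDegree (χ : G → ℂ) →
        ¬ p ∣ charDegree (χ : G → ℂ))) ↔
      ∃ (P : Sylow p G) (Q : Sylow q G),
        ∀ x ∈ (P : Subgroup G), ∀ y ∈ (Q : Subgroup G), x * y = y * x := by
  constructor
  · rintro ⟨h1, h2⟩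
    obtain ⟨P⟩ : Nonempty (Sylow p G) := inferInstance
    obtain ⟨Q⟩ : Nonempty (Sylow q G) := inferInstance
    set Y := pPrimeCore q G with hY
    have hQX := sylow_le_of_degrees hne hps hqs hMp h1 Q
    have hPY := sylow_le_of_degrees (Ne.symm hne) hqs hps hMq h2 P
    have hQY : (Q : Subgroup G) ≤ Subgroup.normalizer (Y : Set G) := by
      rw [Subgroup.normalizer_eq_top]; exact le_top
    obtain ⟨P', hP', hQP'⟩ := Signalizer.exists_isSyl_invariant (q := p) Q.isPGroup' hQY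
      Cores.not_dvd_card_pPrimeCore
    have hidx : ¬ p ∣ P'.index := by
      rw [← Subgroup.relIndex_mul_index hP'.le]
      intro h
      rcases hp.out.dvd_mul.mp h with h' | h'
      exacts [hP'.not_dvd_relIndex h', P.not_dvd_index (h'.trans (Subgroup.index_dvd_of_le hPY))]
    refine ⟨hP'.isPGroup.toSylow hidx, Q, fun x hx y hy => ?_⟩
    rw [IsPGroup.toSylow_coe] at hx
    have h3 : x * (y * x⁻¹ * y⁻¹) ∈ P' :=
      P'.mul_mem hx ((Subgroup.mem_normalizer_iff.mp (hQP' hy) x⁻¹).mp (P'.inv_mem hx))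
    have h4 : x * (y * x⁻¹ * y⁻¹) ∈ pPrimeCore p G := by
      rw [show x * (y * x⁻¹ * y⁻¹) = (x * y * x⁻¹) * y⁻¹ by group]
      exact Subgroup.mul_mem _ ((inferInstance : (pPrimeCore p G).Normal).conj_mem _ (hQX hy) x)
        (Subgroup.inv_mem _ (hQX hy))
    have h5 : x * (y * x⁻¹ * y⁻¹) = 1 := by
      obtain ⟨k, hk⟩ := IsPGroup.iff_card.mp hP'.isPGroup
      refine orderOf_eq_one_iff.mp (Nat.eq_one_of_dvd_coprimes
        (((Nat.Prime.coprime_iff_not_dvd hp.out).mpr
          (Cores.not_dvd_card_pPrimeCore (p := p) (G := G))).pow_left k) ?_ ?_)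
      · rw [← hk, ← Subgroup.orderOf_mk _ h3]; exact orderOf_dvd_natCard _
      · rw [← Subgroup.orderOf_mk _ h4]; exact orderOf_dvd_natCard _
    calc x * y = (x * (y * x⁻¹ * y⁻¹)) * (y * x) := by group
      _ = y * x := by rw [h5, one_mul]
  · rintro ⟨P, Q, hc⟩
    exact ⟨fun χ hχ _ => not_dvd_degree_of_commute hne hps P Q hc hMp χ hχ,
      fun χ hχ _ => not_dvd_degree_of_commute (Ne.symm hne) hqs Q P
        (fun x hx y hy => (hc y hy x hx).symm) hMq χ hχ⟩

end Cfsg.Agent.BlockNilp
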