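import Cfsg.Agent.GlauberCorr.Subgroups
import Cfsg.Agent.FGSev.PPowerIndex

/-!
# When every character invariant under one coprime action is invariant under a second one
-/

set_option autoImplicit false
set_option linter.style.haveILetI false

namespace Cfsg.Agent.BlockNilp

open Cfsg Cfsg.Agent.Char Cfsg.Agent.GlauberCorr

universe u v w

theorem matching_card {X Y : Type*} {p : ℕ} {PX : X → Prop} {PY : Y → Prop} {R : X → Y → ℕ}
    (M : GlauberCorr.Matching p PX PY R) : Nat.card {x // PX x} = Nat.card {y // PY y} := by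
  choose f hf1 hf2 using fun x : {x // PX x} => M.exists_left x.1 x.2
  refine Nat.card_eq_of_bijective (fun x => ⟨f x, hf1 x⟩) ⟨fun a b h => ?_, fun y => ?_⟩
  · have h' : f a = f b := congrArg Subtype.val h
    exact Subtype.ext (M.unique_left a.1 b.1 (f a) a.2 b.2 (hf1 a) (hf2 a) (h' ▸ hf2 b))
  · obtain ⟨x, hx, hm⟩ := M.exists_right y.1 y.2
    exact ⟨⟨x, hx⟩, Subtype.ext (M.unique_right x (f ⟨x, hx⟩) y.1 hx (hf1 _) y.2 (hf2 ⟨x, hx⟩) hm)⟩

/-- The fixed points of an action. -/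
def fixedSub {R : Type u} [Group R] {A : Type v} [Group A] (φ : A →* MulAut R) : Subgroup R where
  carrier := {r | ∀ a, φ a r = r}
  one_mem' := fun a => map_one _
  mul_mem' := fun {x y} hx hy a => by rw [map_mul, hx a, hy a]
  inv_mem' := fun {x} hx a => by rw [map_inv, hx a]

theorem mem_fixedSub {R : Type u} [Group R] {A : Type v} [Group A] {φ : A →* MulAut R} {r : R} :
    r ∈ fixedSub φ ↔ ∀ a, φ a r = r := Iff.rfl

theorem card_irr_congr {H K : Type u} [Group H] [Finite H] [Group K] [Finite K] (e : H ≃* K) :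
    Nat.card (IrrCharacter H) = Nat.card (IrrCharacter K) := by
  refine (Nat.card_eq_of_bijective (irrComap e) ⟨fun a b h => ?_, fun η => ?_⟩).symm
  · refine Subtype.ext (funext fun k => ?_)
    have h1 := congrFun (congrArg Subtype.val h) (e.symm k)
    rwa [irrComap_coe, irrComap_coe, e.apply_symm_apply] at h1
  · exact ⟨irrComap e.symm η, Subtype.ext (funext fun x => by
      rw [irrComap_coe, irrComap_coe, e.symm_apply_apply])⟩

/-- If every `A`-invariant irreducible character is `B`-invariant then `B` fixes the fixed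
points of `A`. -/
theorem fixed_of_forall_invariant {R : Type u} [Group R] [Finite R] {A : Type v} [Group A]
    {B : Type w} [Group B] {p q : ℕ} [Fact p.Prime] [Fact q.Prime] (φA : A →* MulAut R)
    (φB : B →* MulAut R) (hA : IsPGroup p A) (hB : IsPGroup q B) (hpR : ¬ p ∣ Nat.card R)
    (hqR : ¬ q ∣ Nat.card R) (hnorm : ∀ a b, ∃ b', φA a * φB b = φB b' * φA a)
    (hinv : ∀ θ : IrrCharacter R, InvFun φA (θ : R → ℂ) → InvFun φB (θ : R → ℂ)) :
    fixedSub φA ≤ fixedSub φB := by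
  classical
  letI := Fintype.ofFinite R
  set CA := fixedSub φA
  set CQ := fixedSub φB
  have hCQinv : ∀ a, ∀ r ∈ CQ, φA a r ∈ CQ := by
    intro a r hr b
    obtain ⟨b', hb'⟩ := hnorm a⁻¹ b
    have h1 := MulEquiv.congr_fun hb' (φA a r)
    simp only [MulAut.mul_apply] at h1
    have hcanc : φA a⁻¹ (φA a r) = r := by simp
    rw [hcanc, hr b'] at h1
    have h2 := congrArg (φA a) h1
    simpa using h2
  set φAQ := subAut φA CQ hCQinv
  set CB := fixedSub φAQ
  have hMA := matching_fixed φA hA hpR CA (fun _ => Iff.rfl)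
  have hMB := matching_fixed φB hB hqR CQ (fun _ => Iff.rfl)
  have hCQp : ¬ p ∣ Nat.card CQ := fun h => hpR (h.trans (Subgroup.card_subgroup_dvd_card CQ))
  have hMQ := matching_fixed φAQ hA hCQp CB (fun _ => Iff.rfl)
  have hsmul : ∀ (θ : IrrCharacter R) (a : A), InvFun φB (θ : R → ℂ) →
      InvFun φB (irrPerm φA a θ : R → ℂ) := by
    intro θ a hθ b r
    obtain ⟨b', hb'⟩ := hnorm a⁻¹ b
    show (θ : R → ℂ) (φA a⁻¹ (φB b r)) = (θ : R → ℂ) (φA a⁻¹ r)
    rw [← MulAut.mul_apply, hb', MulAut.mul_apply, hθ]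
  -- the counts
  have e1 : Nat.card (IrrCharacter CA) = Nat.card {θ : IrrCharacter R // InvFun φA (θ : R → ℂ)} :=
    ((matching_card hMA).trans
      (Nat.card_congr (Equiv.subtypeUnivEquiv fun _ => trivial))).symm
  have e2 : Nat.card {θ : IrrCharacter R // InvFun φA (θ : R → ℂ)} =
      Nat.card {ξ : IrrCharacter CQ // InvFun φAQ (ξ : CQ → ℂ)} := by
    have hperm : ∀ a θ ξ, resMult CQ (irrPerm φA a θ) (irrPerm φAQ a ξ) = resMult CQ θ ξ :=
      fun a θ ξ => by
        rw [resMult_eq_homMult, resMult_eq_homMult]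
        exact homMult_perm CQ.subtype φA φAQ (fun _ _ => rfl) a θ ξ
    have hex : ∀ θ : {θ : IrrCharacter R // InvFun φA (θ : R → ℂ)},
        ∃ ξ : {ξ : IrrCharacter CQ // InvFun φAQ (ξ : CQ → ℂ)}, ¬ q ∣ resMult CQ θ.1 ξ.1 := by
      intro θ
      obtain ⟨ξ, -, hm⟩ := hMB.exists_left θ.1 (hinv θ.1 θ.2)
      refine ⟨⟨ξ, (irrPerm_fixed_iff φAQ ξ).mp fun a => ?_⟩, hm⟩
      refine hMB.unique_right θ.1 _ ξ (hinv θ.1 θ.2) trivial trivial ?_ hm
      rw [← irrPerm_eq_self θ.2 a, hperm]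
      exact hm
    choose f hf using hex
    refine Nat.card_eq_of_bijective f ⟨fun a b h => ?_, fun ξ => ?_⟩
    · exact Subtype.ext (hMB.unique_left a.1 b.1 (f a).1 (hinv _ a.2) (hinv _ b.2) trivial (hf a)
        (by rw [h]; exact hf b))
    · obtain ⟨θ, hθ, hm⟩ := hMB.exists_right ξ.1 trivial
      have hθA : InvFun φA (θ : R → ℂ) := (irrPerm_fixed_iff φA θ).mp fun a => by
        refine hMB.unique_left _ θ ξ.1 (hsmul θ a hθ) hθ trivial ?_ hm
        rw [← irrPerm_eq_self ξ.2 a, hperm]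
        exact hm
      exact ⟨⟨θ, hθA⟩, Subtype.ext
        (hMB.unique_right θ (f ⟨θ, hθA⟩).1 ξ.1 hθ trivial trivial (hf ⟨θ, hθA⟩) hm)⟩
  have e3 : Nat.card {ξ : IrrCharacter CQ // InvFun φAQ (ξ : CQ → ℂ)} = Nat.card (IrrCharacter CB) :=
    (matching_card hMQ).trans (Nat.card_congr (Equiv.subtypeUnivEquiv fun _ => trivial))
  let D : Subgroup CA := CQ.subgroupOf CA
  let eD : D ≃* CB :=
    { toFun := fun d => ⟨⟨((d : CA) : R), d.2⟩, fun a => Subtype.ext ((d : CA).2 a)⟩
      invFun := fun c => ⟨⟨((c : CQ) : R), fun a => congrArg Subtype.val (c.2 a)⟩, (c : CQ).2⟩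
      left_inv := fun _ => rfl
      right_inv := fun _ => rfl
      map_mul' := fun _ _ => rfl }
  have hk : Nat.card (ConjClasses D) = Nat.card (ConjClasses CA) := by
    rw [← card_irr_eq_card_conjClasses, ← card_irr_eq_card_conjClasses, card_irr_congr eD, e1, e2,
      e3]
  haveI : Finite (ConjClasses CA) := Finite.of_surjective _ ConjClasses.mk_surjective
  have hinj : Function.Injective (ConjClasses.map D.subtype) := by
    intro c c' hcc
    obtain ⟨x, rfl⟩ := ConjClasses.exists_rep c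
    obtain ⟨y, rfl⟩ := ConjClasses.exists_rep c'
    refine ConjClasses.mk_eq_mk_iff_isConj.mpr ?_
    have h1 : IsConj ((x : CA) : R) ((y : CA) : R) :=
      CA.subtype.map_isConj (ConjClasses.mk_eq_mk_iff_isConj.mp hcc)
    have h2 : IsConj ((eD x : CQ)) ((eD y : CQ)) :=
      isConj_of_isConj_fixed φB hB hqR CQ (fun _ => Iff.rfl) (eD x : CQ) (eD y : CQ) h1
    have h3 : IsConj (eD x) (eD y) :=
      isConj_of_isConj_fixed φAQ hA hCQp CB (fun _ => Iff.rfl) (eD x) (eD y) h2
    simpa using eD.symm.toMonoidHom.map_isConj h3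
  have hsurj := ((Nat.bijective_iff_injective_and_card _).mpr ⟨hinj, hk⟩).2
  have htop : D = ⊤ := FGSev.eq_top_of_forall_conj_mem D fun g => by
    obtain ⟨c, hc⟩ := hsurj (ConjClasses.mk g)
    obtain ⟨x, rfl⟩ := ConjClasses.exists_rep c
    obtain ⟨a, ha⟩ := isConj_iff.mp (ConjClasses.mk_eq_mk_iff_isConj.mp hc)
    refine ⟨a, ?_⟩
    rw [← ha]
    have : a⁻¹ * (a * D.subtype x * a⁻¹) * a = (x : CA) := by
      rw [Subgroup.coe_subtype]; group
    rw [this]
    exact x.2
  intro r hr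
  have := htop.ge (Subgroup.mem_top (⟨r, hr⟩ : CA))
  exact this

end Cfsg.Agent.BlockNilp
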