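import Cfsg.Agent.BlockNilp.PSolvable
import Cfsg.Agent.Lib.SchurZassenhaus
import Cfsg.Agent.PGroup.Frattini

/-!
# Principal blocks for two different primes with the same `p'`- and `q'`-degree characters
-/

set_option autoImplicit false
set_option linter.style.haveILetI false

open scoped Pointwise

namespace Cfsg.Agent.BlockNilp

open Cfsg Cfsg.Agent.GlauberCorr

universe u

variable {G : Type u} [Group G] [Finite G] {p : ℕ} [hp : Fact p.Prime]

/-- A `p'`-extension of a normal `p`-subgroup lying in `P'` splits off as a direct factor. -/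
theorem exists_normal_factor (Y M : Subgroup G) [Y.Normal] [M.Normal] (hY : IsPGroup p Y)
    (hYM : Y ≤ M) (hrel : ¬ p ∣ Y.relIndex M) (P : Sylow p G)
    (hP : Y ≤ ⁅(P : Subgroup G), (P : Subgroup G)⁆) :
    ∃ H : Subgroup G, H.Normal ∧ ¬ p ∣ Nat.card H ∧ Y ⊔ H = M := by
  set Ym : Subgroup M := Y.subgroupOf M with hYm
  haveI : Ym.Normal := Subgroup.normal_subgroupOf
  have hYmp : IsPGroup p Ym := hY.of_equiv (Subgroup.subgroupOfEquivOfLe hYM).symm
  obtain ⟨j, hj⟩ := IsPGroup.iff_card.mp hYmp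
  have hcop : (Nat.card Ym).Coprime Ym.index := by
    rw [hj]; exact (coprime_of_not_dvd hrel).pow_left j
  obtain ⟨H', hH'⟩ := Subgroup.exists_right_complement'_of_coprime hcop
  have hsolv : Group.IsSolvable Ym := by
    haveI := hYmp.isNilpotent
    infer_instance
  set H := H'.map M.subtype with hH
  have hHcard : Nat.card H = Ym.index := by
    rw [hH, Subgroup.card_subtype, ← hH'.symm.index_eq_card]
  have hsup : Y ⊔ H = M := by
    refine le_antisymm (sup_le hYM (Subgroup.map_subtype_le H')) fun m hm => ?_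
    obtain ⟨⟨a, b⟩, hab⟩ := hH'.2 ⟨m, hm⟩
    have : ((a : M) : G) * ((b : M) : G) = m := congrArg Subtype.val hab
    rw [← this]
    exact Subgroup.mul_mem_sup a.2 ⟨b, b.2, rfl⟩
  refine ⟨H, ?_, hHcard ▸ hrel, hsup⟩
  -- every element normalises `H` modulo `Y`
  have hfr : ∀ g : G, ∃ y ∈ Y, y⁻¹ * g ∈ Subgroup.normalizer (H : Set G) := by
    intro g
    let e : M ≃* M := MulAut.conjNormal g
    have h1 : Subgroup.IsComplement' Ym (H'.map e.toMonoidHom) := by
      refine Subgroup.isComplement'_of_coprime ?_ ?_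
      · rw [Subgroup.card_map_of_injective (f := e.toMonoidHom) e.injective, hH'.card_mul]
      · rw [Subgroup.card_map_of_injective (f := e.toMonoidHom) e.injective, ← hH'.symm.index_eq_card]
        exact hcop
    obtain ⟨n, hn, hne⟩ := SZ.conj_complement Ym H' _ hH' h1 hcop (Or.inl hsolv)
    refine ⟨n, hn, Subgroup.mem_normalizer_iff.mpr fun h => ?_⟩
    have key : ∀ x : M, x ∈ H' ↔ n⁻¹ * e x * n ∈ H' := by
      intro x
      have h2 : e x ∈ H'.map e.toMonoidHom ↔ x ∈ H' := Subgroup.mem_map_iff_mem e.injective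
      rw [← h2, ← hne, Subgroup.mem_pointwise_smul_iff_inv_smul_mem, ← map_inv,
        MulAut.smul_def, MulAut.conj_apply, inv_inv]
    by_cases hhM : h ∈ M
    · have h3 := key ⟨h, hhM⟩
      have hL : h ∈ H ↔ (⟨h, hhM⟩ : M) ∈ H' := by
        rw [hH]; exact ⟨fun ⟨x, hx, he⟩ => by subst he; exact hx, fun hx => ⟨_, hx, rfl⟩⟩
      rw [hL, h3]
      constructor
      · intro hx
        refine ⟨_, hx, ?_⟩
        show ((n : G))⁻¹ * (g * h * g⁻¹) * (n : G) = _
        group
      · rintro ⟨x, hx, he⟩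
        have hxe : n⁻¹ * e ⟨h, hhM⟩ * n = x := Subtype.ext (by
          show ((n : G))⁻¹ * (g * h * g⁻¹) * (n : G) = (x : G)
          rw [show (x : G) = _ from he]
          group)
        rw [hxe]; exact hx
    · constructor
      · exact fun hh => absurd (Subgroup.map_subtype_le H' hh) hhM
      · intro hh
        refine absurd ?_ hhM
        have hh' : ((n : G))⁻¹ * g * h * (((n : G))⁻¹ * g)⁻¹ ∈ M := Subgroup.map_subtype_le H' hh
        have := Subgroup.Normal.conj_mem (inferInstance : M.Normal) _ hh' (((n : G))⁻¹ * g)⁻¹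
        simpa [mul_assoc] using this
  -- `P` normalises `H`
  have hYP : Y ≤ P := hY.le_sylow_of_normal P
  have hPn : (P : Subgroup G) ≤ Subgroup.normalizer (H : Set G) := by
    have h1 : (Subgroup.normalizer (H : Set G)).subgroupOf (P : Subgroup G) = ⊤ := by
      refine frattini_nongenerating (eq_top_iff.mpr fun u _ => ?_)
      obtain ⟨y, hy, hyn⟩ := hfr (u : G)
      have hyP : y ∈ (P : Subgroup G) := hYP hy
      have e : u = (⟨y, hyP⟩ : (P : Subgroup G)) * ((⟨y, hyP⟩ : (P : Subgroup G))⁻¹ * u) := by group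
      rw [e]
      refine Subgroup.mul_mem _ (Subgroup.mem_sup_right ?_)
        (Subgroup.mem_sup_left (by rw [Subgroup.mem_subgroupOf]; exact hyn))
      apply PGroup.commutator_le_frattini P.isPGroup'
      have h3 : ⁅(P : Subgroup G), (P : Subgroup G)⁆ =
          (_root_.commutator (P : Subgroup G)).map (P : Subgroup G).subtype := by
        rw [_root_.commutator, Subgroup.map_commutator, ← MonoidHom.range_eq_map,
          Subgroup.range_subtype]
      obtain ⟨c, hc, hce⟩ := h3 ▸ hP hy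
      have hcy : c = ⟨y, hyP⟩ := Subtype.ext hce
      exact hcy ▸ hc
    exact Subgroup.subgroupOf_eq_top.mp h1
  refine ⟨fun h hh g => ?_⟩
  obtain ⟨y, hy, hyn⟩ := hfr g
  have hg : g ∈ Subgroup.normalizer (H : Set G) := by
    have h2 := Subgroup.mul_mem _ (hPn (hYP hy)) hyn
    simpa using h2
  exact (Subgroup.mem_normalizer_iff.mp hg h).mp hh

section Half

variable {q : ℕ} [hq : Fact q.Prime]

theorem coprime_pGroup (hne : p ≠ q) {N : Subgroup G} (hN : IsPGroup p N) :
    (Nat.card N).Coprime q := by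
  obtain ⟨j, hj⟩ := IsPGroup.iff_card.mp hN
  rw [hj]
  exact ((Nat.coprime_primes hp.out hq.out).mpr hne).pow_left j

/-- Under the kernel hypothesis for `p`, the `q'`-core is the `p`-core. -/
theorem pPrimeCore_eq_pCore (hne : p ≠ q) (hps : IsPSolvable p G) (P : Sylow p G)
    (hdisj : pPrimeCore p G ⊓ pPrimeCore q G = ⊥)
    (hker : ∀ N : Subgroup G, N.Normal → IsPGroup p N → N ≤ pPrimeCore q G →
      N ≤ ⁅(P : Subgroup G), (P : Subgroup G)⁆) :
    pPrimeCore q G = pCore p G := by
  set Y := pCore p G with hYdef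
  set Z := pPrimeCore q G with hZ
  have hYn : Y.Normal := inferInstance
  have hYp : IsPGroup p Y := Cores.pCore_isPGroup
  have hYZ : Y ≤ Z := Cores.le_pPrimeCore hYn (coprime_pGroup hne hYp)
  refine le_antisymm ?_ hYZ
  by_contra hnle
  let π := QuotientGroup.mk' Y
  have hπ : Function.Surjective π := QuotientGroup.mk'_surjective Y
  haveI : (Z.map π).Normal := Subgroup.Normal.map inferInstance π hπ
  have hZb : Z.map π ≠ ⊥ := by
    rw [Ne, Subgroup.map_eq_bot_iff, QuotientGroup.ker_mk']; exact hnle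
  obtain ⟨Mb, hMbn, hMbZ, hMb, hcase⟩ :=
    PSolv.exists_normal_le_of_isPSolvable (PSolv.isPSolvable_quotient hps Y) (Z.map π) hZb
  haveI := hMbn
  set M := Mb.comap π with hMdef
  haveI : M.Normal := hMbn.comap π
  have hYM : Y ≤ M := QuotientGroup.le_comap_mk' Y Mb
  have hMZ : M ≤ Z := by
    refine (Subgroup.comap_mono hMbZ).trans (le_of_eq ?_)
    rw [Subgroup.comap_map_eq, QuotientGroup.ker_mk', sup_eq_left.mpr hYZ]
  have hrel : Y.relIndex M = Nat.card Mb := by
    have h1 := Subgroup.relIndex_comap (⊥ : Subgroup (G ⧸ Y)) π M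
    rw [MonoidHom.comap_bot, QuotientGroup.ker_mk',
      Subgroup.map_comap_eq_self_of_surjective hπ, Subgroup.relIndex_bot_left] at h1
    exact h1
  rcases hcase with hpg | hpc
  · obtain ⟨i, hi⟩ := IsPGroup.iff_card.mp hpg
    obtain ⟨j, hj⟩ := IsPGroup.iff_card.mp hYp
    have hMp : IsPGroup p M := IsPGroup.of_card (n := j + i) (by
      rw [pow_add, ← hj, ← hi, ← hrel, ← Subgroup.relIndex_bot_left, ← Subgroup.relIndex_bot_left,
        Subgroup.relIndex_mul_relIndex _ _ _ bot_le hYM])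
    have hMY : M ≤ Y := Cores.le_pCore inferInstance hMp
    apply hMb
    rw [← Subgroup.map_comap_eq_self_of_surjective hπ Mb, ← hMdef, Subgroup.map_eq_bot_iff,
      QuotientGroup.ker_mk']
    exact hMY
  · obtain ⟨H, hHn, hHp, hHM⟩ := exists_normal_factor Y M hYp hYM
      (by rw [hrel]; exact (Nat.Prime.coprime_iff_not_dvd hp.out).mp hpc.symm) P
      (hker Y hYn hYp hYZ)
    have hH : H = ⊥ := le_bot_iff.mp (hdisj ▸ le_inf (Cores.le_pPrimeCore_of_not_dvd hHn hHp)
      ((le_sup_right.trans hHM.le).trans hMZ))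
    rw [hH, sup_bot_eq] at hHM
    apply hMb
    rw [← Subgroup.map_comap_eq_self_of_surjective hπ Mb, ← hMdef, ← hHM, Subgroup.map_eq_bot_iff,
      QuotientGroup.ker_mk']

/-- Normal subgroups with `p'`-index over the `p`-core lie below the product of the cores. -/
theorem le_sup_of_relIndex (hne : p ≠ q) (P : Sylow p G)
    (hker : ∀ N : Subgroup G, N.Normal → IsPGroup p N → N ≤ pPrimeCore q G →
      N ≤ ⁅(P : Subgroup G), (P : Subgroup G)⁆)
    (hY : pPrimeCore q G = pCore p G) (L : Subgroup G) (hL : L.Normal)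
    (hle : pCore p G ≤ L) (hrel : ¬ p ∣ (pCore p G).relIndex L) :
    L ≤ pCore p G ⊔ pPrimeCore p G := by
  haveI := hL
  obtain ⟨H, hHn, hHp, hHM⟩ := exists_normal_factor (pCore p G) L Cores.pCore_isPGroup hle hrel P
    (hker _ inferInstance Cores.pCore_isPGroup hY.ge)
  rw [← hHM]
  exact sup_le_sup_left (Cores.le_pPrimeCore_of_not_dvd hHn hHp) _

end Half

/-- The group theoretic part. -/
theorem not_dvd_card_of_kernels {q : ℕ} [hq : Fact q.Prime] (hne : p ≠ q) (hps : IsPSolvable p G)
    (hqs : IsPSolvable q G) (hdisj : pPrimeCore p G ⊓ pPrimeCore q G = ⊥) (P : Sylow p G)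
    (Q : Sylow q G)
    (hkp : ∀ N : Subgroup G, N.Normal → IsPGroup p N → N ≤ pPrimeCore q G →
      N ≤ ⁅(P : Subgroup G), (P : Subgroup G)⁆)
    (hkq : ∀ N : Subgroup G, N.Normal → IsPGroup q N → N ≤ pPrimeCore p G →
      N ≤ ⁅(Q : Subgroup G), (Q : Subgroup G)⁆) : ¬ p ∣ Nat.card G := by
  have hY : pPrimeCore q G = pCore p G := pPrimeCore_eq_pCore hne hps P hdisj hkp
  have hX : pPrimeCore p G = pCore q G :=
    pPrimeCore_eq_pCore (Ne.symm hne) hqs Q (by rw [inf_comm]; exact hdisj) hkq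
  set X := pPrimeCore p G with hXdef
  set Y := pCore p G with hYdef
  set Z := Y ⊔ X with hZdef
  haveI : Z.Normal := Subgroup.sup_normal Y X
  have hYp : IsPGroup p Y := Cores.pCore_isPGroup
  have hXnp : ¬ p ∣ Nat.card X := Cores.not_dvd_card_pPrimeCore
  have hYnq : ¬ q ∣ Nat.card Y := hY ▸ Cores.not_dvd_card_pPrimeCore
  have hXq : IsPGroup q X := hX ▸ Cores.pCore_isPGroup
  have htop : Z = ⊤ := by
    by_contra hZ
    haveI : Nontrivial (G ⧸ Z) := QuotientGroup.nontrivial_iff.mpr hZ
    let π := QuotientGroup.mk' Z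
    have hπ : Function.Surjective π := QuotientGroup.mk'_surjective Z
    have hrelmk : ∀ Lb : Subgroup (G ⧸ Z), Z.relIndex (Lb.comap π) = Nat.card Lb := by
      intro Lb
      have h1 := Subgroup.relIndex_comap (⊥ : Subgroup (G ⧸ Z)) π (Lb.comap π)
      rw [MonoidHom.comap_bot, QuotientGroup.ker_mk',
        Subgroup.map_comap_eq_self_of_surjective hπ, Subgroup.relIndex_bot_left] at h1
      exact h1
    have hbot : ∀ Lb : Subgroup (G ⧸ Z), Lb.comap π ≤ Z → Lb = ⊥ := by
      intro Lb hle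
      rw [← Subgroup.map_comap_eq_self_of_surjective hπ Lb, Subgroup.map_eq_bot_iff,
        QuotientGroup.ker_mk']
      exact hle
    rcases PSolv.pCore_ne_bot_or_pPrimeCore_ne_bot (PSolv.isPSolvable_quotient hps Z) with h1 | h1
    · apply h1
      refine hbot _ ?_
      have hL : ((pCore p (G ⧸ Z)).comap π).Normal :=
        (inferInstance : (pCore p (G ⧸ Z)).Normal).comap π
      have hle : X ≤ (pCore p (G ⧸ Z)).comap π :=
        le_sup_right.trans (QuotientGroup.le_comap_mk' Z _)
      have h2 := le_sup_of_relIndex (Ne.symm hne) Q hkq hX ((pCore p (G ⧸ Z)).comap π) hL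
        (hX ▸ hle) ?_
      · rw [hY, ← hX] at h2
        exact h2.trans (sup_comm X Y).le
      · have hYX : X.relIndex Z = X.relIndex Y := Subgroup.relIndex_sup_right Y X
        rw [← hX, ← Subgroup.relIndex_mul_relIndex X Z _ le_sup_right
          (QuotientGroup.le_comap_mk' Z _), hrelmk, hYX]
        obtain ⟨i, hi⟩ := IsPGroup.iff_card.mp (Cores.pCore_isPGroup (p := p) (G := G ⧸ Z))
        rw [hi]
        intro hd
        rcases hq.out.dvd_mul.mp hd with h3 | h3
        · exact hYnq (h3.trans (Subgroup.relIndex_dvd_card X Y))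
        · exact hne ((Nat.prime_dvd_prime_iff_eq hq.out hp.out).mp (hq.out.dvd_of_dvd_pow h3)).symm
    · apply h1
      refine hbot _ ?_
      have hL : ((pPrimeCore p (G ⧸ Z)).comap π).Normal :=
        (inferInstance : (pPrimeCore p (G ⧸ Z)).Normal).comap π
      refine le_sup_of_relIndex hne P hkp hY ((pPrimeCore p (G ⧸ Z)).comap π) hL
        (le_sup_left.trans (QuotientGroup.le_comap_mk' Z _)) ?_
      have hXY : Y.relIndex Z = Y.relIndex X :=
        (congrArg Y.relIndex (sup_comm Y X)).trans (Subgroup.relIndex_sup_right X Y)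
      rw [← hYdef, ← Subgroup.relIndex_mul_relIndex Y Z _ le_sup_left
        (QuotientGroup.le_comap_mk' Z _), hrelmk, hXY]
      intro hd
      rcases hp.out.dvd_mul.mp hd with h3 | h3
      · exact hXnp (h3.trans (Subgroup.relIndex_dvd_card Y X))
      · exact Cores.not_dvd_card_pPrimeCore h3
  -- now `G = Y X` with `Y` the Sylow `p`-subgroup
  have hPY : (P : Subgroup G) = Y := by
    have hle : Y ≤ P := hYp.le_sylow_of_normal P
    refine le_antisymm (fun u hu => ?_) hle
    have hu' : u ∈ Z := htop ▸ Subgroup.mem_top u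
    rw [hZdef, ← SetLike.mem_coe, Subgroup.mul_normal] at hu'
    obtain ⟨y, hy, x, hx, rfl⟩ := Set.mem_mul.mp hu'
    have hxP : x ∈ (P : Subgroup G) := by
      simpa using (P : Subgroup G).mul_mem ((P : Subgroup G).inv_mem (hle hy)) hu
    obtain ⟨j, hj⟩ := IsPGroup.iff_orderOf.mp P.isPGroup' ⟨x, hxP⟩
    rw [← Subgroup.orderOf_coe] at hj
    have h2 := orderOf_dvd_natCard (⟨x, hx⟩ : X)
    rw [← Subgroup.orderOf_coe] at h2
    have h3 : x = 1 := orderOf_eq_one_iff.mp (Nat.eq_one_of_dvd_coprimes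
      ((coprime_of_not_dvd hXnp).pow_left j) (hj ▸ dvd_rfl) h2)
    rw [h3, mul_one]
    exact hy
  intro hpd
  have hcomm : Y ≤ ⁅Y, Y⁆ := hPY ▸ hkp Y inferInstance hYp hY.ge
  haveI := hYp.isNilpotent
  haveI : Nontrivial Y := by
    rw [Subgroup.nontrivial_iff_ne_bot]
    intro hb
    apply hXnp
    rw [← Subgroup.card_top (G := G), ← htop, hZdef, hb, bot_sup_eq] at hpd
    exact hpd
  have h1 : _root_.commutator Y = ⊤ := by
    rw [eq_top_iff]
    intro y _
    have h3 : ⁅Y, Y⁆ = (_root_.commutator Y).map Y.subtype := by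
      rw [_root_.commutator, Subgroup.map_commutator, ← MonoidHom.range_eq_map, Subgroup.range_subtype]
    obtain ⟨c, hc, hce⟩ := h3 ▸ hcomm y.2
    rwa [Subtype.ext hce] at hc
  exact absurd h1 (Group.IsSolvable.commutator_lt_top_of_nontrivial Y).ne

end Cfsg.Agent.BlockNilp
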