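import Cfsg.Agent.BlockNilp.DegreeDivides
import Cfsg.Agent.BlockNilp.TwoPrimes
import Cfsg.Agent.BlockNilp.InvClasses
import Cfsg.Agent.Signalizer.PAction
import Cfsg.Agent.PGroup.Frattini

/-!
# `p'`-degrees prime to `q` in a group with trivial `p'`-core
-/

set_option autoImplicit false
set_option linter.style.haveILetI false

open scoped Pointwise

namespace Cfsg.Agent.BlockNilp

open Cfsg Cfsg.Agent.Char Cfsg.Agent.GlauberCorr

universe u

variable {G : Type u} [Group G] [Finite G] {p q : ℕ} [hp : Fact p.Prime] [hq : Fact q.Prime]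

theorem card_comap_mk (N : Subgroup G) [N.Normal] (Hb : Subgroup (G ⧸ N)) :
    Nat.card (Hb.comap (QuotientGroup.mk' N)) = Nat.card N * Nat.card Hb := by
  have h1 := Subgroup.relIndex_comap (⊥ : Subgroup (G ⧸ N)) (QuotientGroup.mk' N)
    (Hb.comap (QuotientGroup.mk' N))
  rw [MonoidHom.comap_bot, QuotientGroup.ker_mk',
    Subgroup.map_comap_eq_self_of_surjective (QuotientGroup.mk'_surjective N),
    Subgroup.relIndex_bot_left] at h1
  rw [← h1, ← Subgroup.relIndex_bot_left, ← Subgroup.relIndex_bot_left,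
    Subgroup.relIndex_mul_relIndex _ _ _ bot_le (QuotientGroup.le_comap_mk' N Hb)]

theorem relIndex_comap_mk (N : Subgroup G) [N.Normal] (Hb : Subgroup (G ⧸ N)) :
    N.relIndex (Hb.comap (QuotientGroup.mk' N)) = Nat.card Hb := by
  have h1 := Subgroup.relIndex_comap (⊥ : Subgroup (G ⧸ N)) (QuotientGroup.mk' N)
    (Hb.comap (QuotientGroup.mk' N))
  rwa [MonoidHom.comap_bot, QuotientGroup.ker_mk',
    Subgroup.map_comap_eq_self_of_surjective (QuotientGroup.mk'_surjective N),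
    Subgroup.relIndex_bot_left] at h1

/-- A subgroup of `M` with indices of coprime orders over two subgroups is all of `M`. -/
theorem sup_eq_of_coprime_relIndex {A B M : Subgroup G} (hA : A ≤ M) (hB : B ≤ M)
    (h : (A.relIndex M).Coprime (B.relIndex M)) : A ⊔ B = M := by
  have hle : A ⊔ B ≤ M := sup_le hA hB
  refine le_antisymm hle (Subgroup.relIndex_eq_one.mp (Nat.eq_one_of_dvd_coprimes h ?_ ?_))
  · exact Dvd.intro_left _ (Subgroup.relIndex_mul_relIndex A (A ⊔ B) M le_sup_left hle)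
  · exact Dvd.intro_left _ (Subgroup.relIndex_mul_relIndex B (A ⊔ B) M le_sup_right hle)

/-- The degree criterion: the inductive step. -/
theorem false_of_dvd_core (hps : IsPSolvable p G) (hqs : IsPSolvable q G)
    (hO : pPrimeCore p G = ⊥)
    (hyp : ∀ χ : IrrCharacter G, ¬ p ∣ charDegree (χ : G → ℂ) → ¬ q ∣ charDegree (χ : G → ℂ))
    (hL : q ∣ Nat.card (pPrimeCore p (G ⧸ pCore p G))) (hne : p ≠ q) : False := by
  classical
  haveI : NeZero p := ⟨hp.out.ne_zero⟩
  set V := pCore p G with hVdef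
  have hVp : IsPGroup p V := Cores.pCore_isPGroup
  have hCV : Subgroup.centralizer (V : Set G) ≤ V := PSolv.centralizer_pCore_le hps hO
  have hVnq : ¬ q ∣ Nat.card V := fun h =>
    hq.out.ne_one (Nat.eq_one_of_dvd_coprimes (coprime_pGroup hne hVp) h dvd_rfl)
  let π := QuotientGroup.mk' V
  have hπ : Function.Surjective π := QuotientGroup.mk'_surjective V
  set L := pPrimeCore p (G ⧸ V) with hLdef
  have hLp : ¬ p ∣ Nat.card L := Cores.not_dvd_card_pPrimeCore
  set R := L ⊓ pPrimeCore q (G ⧸ V) with hRdef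
  haveI hRn : R.Normal := Subgroup.normal_inf_normal _ _
  have hRp : ¬ p ∣ Nat.card R := fun h => hLp (h.trans (Subgroup.card_dvd_of_le inf_le_left))
  have hRq : ¬ q ∣ Nat.card R := fun h =>
    Cores.not_dvd_card_pPrimeCore (p := q) (h.trans (Subgroup.card_dvd_of_le inf_le_right))
  -- a normal subgroup `L₁` of `G ⧸ V` with `L₁ / R` a nontrivial `q`-group
  let ρ := QuotientGroup.mk' R
  have hρ : Function.Surjective ρ := QuotientGroup.mk'_surjective R
  haveI : (L.map ρ).Normal := Subgroup.Normal.map inferInstance ρ hρ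
  have hLb : L.map ρ ≠ ⊥ := by
    rw [Ne, Subgroup.map_eq_bot_iff, QuotientGroup.ker_mk']
    exact fun hle => hRq (hL.trans (Subgroup.card_dvd_of_le hle))
  obtain ⟨Mb, hMbn, hMbL, hMb, hcase⟩ := PSolv.exists_normal_le_of_isPSolvable
    (PSolv.isPSolvable_quotient (PSolv.isPSolvable_quotient hqs V) R) (L.map ρ) hLb
  haveI := hMbn
  set L1 := Mb.comap ρ with hL1def
  haveI hL1n : L1.Normal := hMbn.comap ρ
  have hRL1 : R ≤ L1 := QuotientGroup.le_comap_mk' R Mb
  have hL1L : L1 ≤ L := by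
    refine (Subgroup.comap_mono hMbL).trans (le_of_eq ?_)
    rw [Subgroup.comap_map_eq, QuotientGroup.ker_mk']
    exact sup_eq_left.mpr inf_le_left
  have hMbq : IsPGroup q Mb := by
    refine hcase.resolve_right fun hc => hMb ?_
    have hle : L1 ≤ R := le_inf hL1L (Cores.le_pPrimeCore hL1n (by
      rw [hL1def, card_comap_mk]
      exact ((coprime_of_not_dvd hRq).symm).mul_left hc))
    rw [← Subgroup.map_comap_eq_self_of_surjective hρ Mb, Subgroup.map_eq_bot_iff,
      QuotientGroup.ker_mk']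
    exact hle
  obtain ⟨i, hi⟩ := IsPGroup.iff_card.mp hMbq
  have hrelR : R.relIndex L1 = q ^ i := by rw [hL1def, relIndex_comap_mk, hi]
  have hL1p : ¬ p ∣ Nat.card L1 := fun h => hLp (h.trans (Subgroup.card_dvd_of_le hL1L))
  -- the Sylow subgroup `P` and an invariant Sylow `q`-subgroup of `L₁`
  obtain ⟨P⟩ : Nonempty (Sylow p G) := inferInstance
  have hVP : V ≤ (P : Subgroup G) := hVp.le_sylow_of_normal P
  set Pb := (P : Subgroup G).map π with hPbdef
  have hPb : IsPGroup p Pb := P.isPGroup'.map π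
  have hPbL1 : Pb ≤ Subgroup.normalizer (L1 : Set (G ⧸ V)) := by
    rw [Subgroup.normalizer_eq_top]; exact le_top
  obtain ⟨Qb, hQb, hPQ⟩ := Signalizer.exists_isSyl_invariant (q := q) hPb hPbL1 hL1p
  have hQbne : Qb ≠ ⊥ := by
    intro h0
    refine hQb.not_dvd_relIndex ?_
    rw [h0, Subgroup.relIndex_bot_left, hL1def, card_comap_mk]
    refine dvd_mul_of_dvd_right (hi ▸ dvd_pow_self q fun hi0 => hMb ?_) _
    exact Subgroup.card_eq_one.mp (by rw [hi, hi0, pow_zero])
  have hL1sup : R ⊔ Qb = L1 := by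
    refine sup_eq_of_coprime_relIndex hRL1 hQb.le ?_
    rw [hrelR]
    exact (coprime_of_not_dvd hQb.not_dvd_relIndex).pow_left i
  -- inflated hypothesis
  have hypN : ∀ χ : IrrCharacter (G ⧸ V), ¬ p ∣ charDegree (χ : G ⧸ V → ℂ) →
      ¬ q ∣ charDegree (χ : G ⧸ V → ℂ) := fun χ hd =>
    hyp ⟨fun g => (χ : G ⧸ V → ℂ) (π g), isIrrCharacter_comp χ.2 π hπ⟩ hd
  -- fixed points of `P` in `R` are fixed by `Qb`
  have hPR : Pb ≤ Subgroup.normalizer (R : Set (G ⧸ V)) := by
    rw [Subgroup.normalizer_eq_top]; exact le_top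
  have hQR : Qb ≤ Subgroup.normalizer (R : Set (G ⧸ V)) := by
    rw [Subgroup.normalizer_eq_top]; exact le_top
  have hfix := fixed_of_forall_invariant (conjAct Pb R hPR) (conjAct Qb R hQR) hPb hQb.isPGroup
    hRp hRq (fun a b => ⟨⟨(a : G ⧸ V) * b * (a : G ⧸ V)⁻¹,
      (Subgroup.mem_normalizer_iff.mp (hPQ a.2) b).mp b.2⟩, MulEquiv.ext fun r => Subtype.ext (by
        show (a : G ⧸ V) * ((b : G ⧸ V) * r * (b : G ⧸ V)⁻¹) * (a : G ⧸ V)⁻¹ =
          (a : G ⧸ V) * b * (a : G ⧸ V)⁻¹ * ((a : G ⧸ V) * r * (a : G ⧸ V)⁻¹) *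
            ((a : G ⧸ V) * b * (a : G ⧸ V)⁻¹)⁻¹
        group)⟩) (fun θ hθ => by
      set T := CharExt.inertia R (θ : R → ℂ) with hTdef
      have hidx : ¬ q ∣ T.index := not_dvd_inertia_index_pPrime hypN R hRp
        (P.mapSurjective hπ) θ fun u hu => by
          rw [show ((P.mapSurjective hπ : Sylow p (G ⧸ V)) : Subgroup (G ⧸ V)) = Pb from
            P.coe_mapSurjective hπ] at hu
          funext r
          rw [CharInd.conjChar_apply]
          exact hθ ⟨u, hu⟩ r
      have hL1T : L1 ≤ T := by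
        refine Subgroup.relIndex_eq_one.mp (Nat.eq_one_of_dvd_coprimes
          ((coprime_of_not_dvd fun h => hidx (h.trans (relIndex_dvd_index_normal T L1))).pow_left i)
          ?_ dvd_rfl)
        rw [← hrelR]
        exact Subgroup.relIndex_dvd_of_le_left L1 (CharExt.le_inertia R (irr_isClassFunction θ.2))
      intro b r
      have h1 := congrFun (CharExt.mem_inertia.mp (hL1T (hQb.le b.2))) r
      rw [CharInd.conjChar_apply] at h1
      exact h1)
  -- the preimage `M₂` of `Qb` and a Sylow `q`-subgroup `Q1`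
  set M2 := Qb.comap π with hM2def
  obtain ⟨Q1, hQ1, -⟩ := Signalizer.exists_isSyl_ge (q := q) (R := (⊥ : Subgroup G)) (X := M2)
    IsPGroup.of_bot bot_le
  obtain ⟨j, hj⟩ := IsPGroup.iff_card.mp hQb.isPGroup
  have hVM2 : V ≤ M2 := QuotientGroup.le_comap_mk' V Qb
  have hM2sup : V ⊔ Q1 = M2 := by
    refine sup_eq_of_coprime_relIndex hVM2 hQ1.le ?_
    rw [hM2def, relIndex_comap_mk, hj]
    exact (coprime_of_not_dvd hQ1.not_dvd_relIndex).pow_left j
  have hfac : ∀ u ∈ (P : Subgroup G), ∃ v ∈ V, v⁻¹ * u ∈ Subgroup.normalizer (Q1 : Set G) := by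
    intro u hu
    have hM2u : M2.map (MulAut.conj u).toMonoidHom = M2 := by
      rw [Signalizer.map_conj_eq_self_iff, Subgroup.mem_normalizer_iff]
      intro x
      show π x ∈ Qb ↔ π (u * x * u⁻¹) ∈ Qb
      rw [map_mul, map_mul, map_inv]
      exact Subgroup.mem_normalizer_iff.mp (hPQ ⟨u, hu, rfl⟩) (π x)
    obtain ⟨y, hy, hye⟩ := hQ1.exists_conj (hM2u ▸ hQ1.map_conj u)
    rw [← hM2sup, ← SetLike.mem_coe, Subgroup.normal_mul] at hy
    obtain ⟨v, hv, s, hs, rfl⟩ := Set.mem_mul.mp hy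
    refine ⟨v, hv, ?_⟩
    rw [← Signalizer.map_conj_map_conj, Signalizer.map_conj_eq_self_iff.mpr
      (Subgroup.le_normalizer hs)] at hye
    exact Signalizer.mem_normalizer_of_map_conj_eq hye
  -- every linear character of `P` is fixed by `Q1` on `V`
  have hW : ∀ x ∈ Q1, ∀ v ∈ V, x * v * x⁻¹ * v⁻¹ ∈ ⁅(P : Subgroup G), (P : Subgroup G)⁆ := by
    intro x hx v hv
    have hmem : x * v * x⁻¹ * v⁻¹ ∈ V :=
      V.mul_mem ((inferInstance : V.Normal).conj_mem v hv x) (V.inv_mem hv)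
    refine mem_commutator_of_forall_hom (P : Subgroup G) ⟨_, hVP hmem⟩ fun f => ?_
    set μ : V → ℂ := fun w => (f (Subgroup.inclusion hVP w) : ℂ) with hμ
    set T := CharExt.inertia V μ with hTdef
    have hidx : ¬ q ∣ T.index := not_dvd_inertia_index_linear hyp V P hVP f
    have hVT : V ≤ T := CharExt.le_inertia V fun a b => by
      show (f _ : ℂ) = f _
      congr 1
      rw [show Subgroup.inclusion hVP (b * a * b⁻¹) = Subgroup.inclusion hVP b *
        Subgroup.inclusion hVP a * (Subgroup.inclusion hVP b)⁻¹ by rw [map_mul, map_mul, map_inv],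
        map_mul, map_mul, map_inv, mul_comm (f _) (f (Subgroup.inclusion hVP a)),
        mul_inv_cancel_right]
    have hPT : (P : Subgroup G) ≤ T := by
      intro u hu
      rw [hTdef, CharExt.mem_inertia]
      funext w
      rw [CharInd.conjChar_apply]
      show (f _ : ℂ) = f _
      congr 1
      rw [show Subgroup.inclusion hVP ⟨u * w * u⁻¹, (inferInstance : V.Normal).conj_mem _ w.2 u⟩ =
        ⟨u, hu⟩ * Subgroup.inclusion hVP w * (⟨u, hu⟩ : (P : Subgroup G))⁻¹ from rfl,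
        map_mul, map_mul, map_inv, mul_comm (f ⟨u, hu⟩) (f (Subgroup.inclusion hVP w)),
        mul_inv_cancel_right]
    set Tb := (T ⊓ L1.comap π).map π with hTbdef
    have hTbL1 : Tb ≤ L1 := by rintro _ ⟨t, ht, rfl⟩; exact ht.2
    have hTbq : ¬ q ∣ Tb.relIndex L1 := by
      intro h
      apply hidx
      refine (h.trans ?_).trans (relIndex_dvd_index_normal T (L1.comap π))
      rw [← Subgroup.inf_relIndex_right T (L1.comap π)]
      have h2 := Subgroup.relIndex_map_map π (T ⊓ L1.comap π) (L1.comap π)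
      rw [Subgroup.map_comap_eq_self_of_surjective hπ, QuotientGroup.ker_mk',
        sup_eq_left.mpr (le_inf hVT (QuotientGroup.le_comap_mk' V L1)),
        sup_eq_left.mpr (QuotientGroup.le_comap_mk' V L1)] at h2
      rw [hTbdef, h2]
    have hPbTb : Pb ≤ Subgroup.normalizer (Tb : Set (G ⧸ V)) := by
      rintro _ ⟨u, hu, rfl⟩
      rw [Subgroup.mem_normalizer_iff]
      have hstab : ∀ (w : G), w ∈ T → ∀ t ∈ Tb, π w * t * (π w)⁻¹ ∈ Tb := by
        rintro w hw _ ⟨t, ht, rfl⟩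
        refine ⟨w * t * w⁻¹, ⟨T.mul_mem (T.mul_mem hw ht.1) (T.inv_mem hw), ?_⟩, by simp⟩
        show π (w * t * w⁻¹) ∈ L1
        rw [map_mul, map_mul, map_inv]
        exact hL1n.conj_mem _ ht.2 _
      refine fun t => ⟨hstab u (hPT hu) t, fun ht => ?_⟩
      have := hstab u⁻¹ (T.inv_mem (hPT hu)) _ ht
      simpa [mul_assoc] using this
    obtain ⟨Q2, hQ2, hPQ2⟩ := Signalizer.exists_isSyl_invariant (q := q) hPb hPbTb
      (fun h => hL1p (h.trans (Subgroup.card_dvd_of_le hTbL1)))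
    have hQ2' : Signalizer.IsSyl q Q2 L1 := by
      refine ⟨hQ2.le.trans hTbL1, hQ2.isPGroup, fun S hS hSq hle => ?_⟩
      obtain ⟨k, hk⟩ := IsPGroup.iff_card.mp hSq
      refine le_antisymm (Subgroup.relIndex_eq_one.mp ?_) hle
      have h1 : ¬ q ∣ Q2.relIndex L1 := by
        rw [← Subgroup.relIndex_mul_relIndex Q2 Tb L1 hQ2.le hTbL1]
        intro h
        rcases hq.out.dvd_mul.mp h with h' | h'
        exacts [hQ2.not_dvd_relIndex h', hTbq h']
      refine Nat.eq_one_of_dvd_coprimes ((coprime_of_not_dvd h1).pow_left k)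
        (hk ▸ Subgroup.relIndex_dvd_card Q2 S)
        (Dvd.intro _ (Subgroup.relIndex_mul_relIndex Q2 S L1 hle hS))
    obtain ⟨c, ⟨hcL1, hcC⟩, hcQ⟩ :=
      Signalizer.exists_conj_isSyl_invariant hPb hPbL1 hL1p hQb hPQ hQ2' hPQ2
    replace hcL1 : c ∈ ((R ⊔ Qb : Subgroup (G ⧸ V)) : Set (G ⧸ V)) := hL1sup.symm ▸ hcL1
    rw [Subgroup.normal_mul] at hcL1
    obtain ⟨r, hr, s, hs, rfl⟩ := Set.mem_mul.mp hcL1
    have hrfix : (⟨r, hr⟩ : R) ∈ fixedSub (conjAct Pb R hPR) := by
      intro a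
      refine Subtype.ext ?_
      show (a : G ⧸ V) * r * (a : G ⧸ V)⁻¹ = r
      have h1 : (a : G ⧸ V) * (r * s) = r * s * a := Subgroup.mem_centralizer_iff.mp hcC a a.2
      have h2 : (a : G ⧸ V) * s * (a : G ⧸ V)⁻¹ ∈ Qb :=
        (Subgroup.mem_normalizer_iff.mp (hPQ a.2) s).mp hs
      have h3 : (a : G ⧸ V) * r * (a : G ⧸ V)⁻¹ ∈ R := hRn.conj_mem r hr _
      have h4 : ((a : G ⧸ V) * r * (a : G ⧸ V)⁻¹) * ((a : G ⧸ V) * s * (a : G ⧸ V)⁻¹) = r * s := by
        calc _ = (a : G ⧸ V) * (r * s) * (a : G ⧸ V)⁻¹ := by group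
          _ = r * s := by rw [h1]; group
      have h5 : r⁻¹ * ((a : G ⧸ V) * r * (a : G ⧸ V)⁻¹) =
          s * ((a : G ⧸ V) * s * (a : G ⧸ V)⁻¹)⁻¹ := by
        rw [eq_mul_inv_iff_mul_eq, mul_assoc, h4, inv_mul_cancel_left]
      have h6 : r⁻¹ * ((a : G ⧸ V) * r * (a : G ⧸ V)⁻¹) ∈ R := R.mul_mem (R.inv_mem hr) h3
      have h7 : r⁻¹ * ((a : G ⧸ V) * r * (a : G ⧸ V)⁻¹) ∈ Qb := by
        rw [h5]; exact Qb.mul_mem hs (Qb.inv_mem h2)
      have h8 : r⁻¹ * ((a : G ⧸ V) * r * (a : G ⧸ V)⁻¹) = 1 := by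
        refine orderOf_eq_one_iff.mp (Nat.eq_one_of_dvd_coprimes
          ((coprime_of_not_dvd hRq).pow_left j) ?_ ?_)
        · rw [← hj, ← Subgroup.orderOf_mk _ h7]; exact orderOf_dvd_natCard _
        · rw [← Subgroup.orderOf_mk _ h6]; exact orderOf_dvd_natCard _
      exact (inv_mul_eq_one.mp h8).symm
    have hrN : r ∈ Subgroup.normalizer (Qb : Set (G ⧸ V)) := by
      refine Subgroup.centralizer_le_normalizer _ (Subgroup.mem_centralizer_iff.mpr fun y hy => ?_)
      have h1 : y * r * y⁻¹ = r := congrArg Subtype.val (hfix hrfix ⟨y, hy⟩)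
      calc y * r = y * r * y⁻¹ * y := by group
        _ = r * y := by rw [h1]
    rw [Signalizer.map_conj_eq_self_iff.mpr
      (Subgroup.mul_mem _ hrN (Subgroup.le_normalizer hs))] at hcQ
    have hxT : x ∈ T := by
      have hxQb : π x ∈ Qb := hQ1.le hx
      rw [hcQ] at hxQb
      obtain ⟨t, ht, hte⟩ := hQ2.le hxQb
      have h1 : t⁻¹ * x ∈ V := QuotientGroup.eq.mp hte
      have := T.mul_mem ht.1 (hVT h1)
      simpa using this
    have h1 : μ ⟨x * v * x⁻¹, (inferInstance : V.Normal).conj_mem v hv x⟩ = μ ⟨v, hv⟩ := by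
      have := congrFun (CharExt.mem_inertia.mp hxT) ⟨v, hv⟩
      rwa [CharInd.conjChar_apply] at this
    have h2 : f ⟨x * v * x⁻¹, hVP ((inferInstance : V.Normal).conj_mem v hv x)⟩ = f ⟨v, hVP hv⟩ :=
      Units.ext h1
    rw [show (⟨x * v * x⁻¹ * v⁻¹, hVP hmem⟩ : (P : Subgroup G)) =
      ⟨x * v * x⁻¹, hVP ((inferInstance : V.Normal).conj_mem v hv x)⟩ *
        (⟨v, hVP hv⟩ : (P : Subgroup G))⁻¹ from rfl, map_mul, map_inv, h2, mul_inv_cancel]
  -- `P` normalises `Q1`
  set W := ⁅(P : Subgroup G), (P : Subgroup G)⁆ ⊓ V with hWdef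
  have hWmem : ∀ x ∈ Q1, ∀ v ∈ V, x * v * x⁻¹ * v⁻¹ ∈ W := fun x hx v hv =>
    ⟨hW x hx v hv, V.mul_mem ((inferInstance : V.Normal).conj_mem v hv x) (V.inv_mem hv)⟩
  have hQW : Q1 ≤ Subgroup.normalizer (W : Set G) := by
    have h1 : ∀ x ∈ Q1, ∀ w ∈ W, x * w * x⁻¹ ∈ W := fun x hx w hw => by
      have := W.mul_mem (hWmem x hx w hw.2) hw
      simpa using this
    intro x hx
    rw [Subgroup.mem_normalizer_iff]
    refine fun w => ⟨h1 x hx w, fun h => ?_⟩
    have := h1 x⁻¹ (Q1.inv_mem hx) _ h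
    simpa [mul_assoc] using this
  have hPN : (P : Subgroup G) ≤ Subgroup.normalizer (Q1 : Set G) := by
    have h1 : (Subgroup.normalizer (Q1 : Set G)).subgroupOf (P : Subgroup G) = ⊤ := by
      refine frattini_nongenerating (eq_top_iff.mpr fun u _ => ?_)
      obtain ⟨v, hv, hvu⟩ := hfac u u.2
      have hconj : Q1.map (MulAut.conj v).toMonoidHom ≤ W ⊔ Q1 := by
        rintro _ ⟨y, hy, rfl⟩
        show v * y * v⁻¹ ∈ W ⊔ Q1
        have e : v * y * v⁻¹ = (y * v * y⁻¹ * v⁻¹)⁻¹ * y := by group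
        rw [e]
        exact Subgroup.mul_mem_sup (W.inv_mem (hWmem y hy v hv)) hy
      have hle : W ⊔ Q1 ≤ M2 := sup_le (inf_le_right.trans hVM2) hQ1.le
      have hM2v : M2.map (MulAut.conj v).toMonoidHom = M2 :=
        Signalizer.map_conj_eq_self_iff.mpr (Subgroup.le_normalizer (hVM2 hv))
      obtain ⟨y, hy, hye⟩ := (hQ1.mono le_sup_right hle).exists_conj
        ((hM2v ▸ hQ1.map_conj v).mono hconj hle)
      rw [← SetLike.mem_coe, Subgroup.coe_mul_of_right_le_normalizer_left W Q1 hQW] at hy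
      obtain ⟨w, hw, s, hs, rfl⟩ := Set.mem_mul.mp hy
      rw [← Signalizer.map_conj_map_conj, Signalizer.map_conj_eq_self_iff.mpr
        (Subgroup.le_normalizer hs)] at hye
      have hwv : w⁻¹ * v ∈ Subgroup.normalizer (Q1 : Set G) :=
        Signalizer.mem_normalizer_of_map_conj_eq hye
      have hwu : w⁻¹ * (u : G) ∈ Subgroup.normalizer (Q1 : Set G) := by
        have := Subgroup.mul_mem _ hwv hvu
        simpa [mul_assoc] using this
      have hwP : w ∈ (P : Subgroup G) := hVP hw.2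
      have e : u = (⟨w, hwP⟩ : (P : Subgroup G)) * ((⟨w, hwP⟩ : (P : Subgroup G))⁻¹ * u) := by group
      rw [e]
      refine Subgroup.mul_mem _ (Subgroup.mem_sup_right ?_)
        (Subgroup.mem_sup_left (by rw [Subgroup.mem_subgroupOf]; exact hwu))
      apply PGroup.commutator_le_frattini P.isPGroup'
      have h3 : ⁅(P : Subgroup G), (P : Subgroup G)⁆ =
          (_root_.commutator (P : Subgroup G)).map (P : Subgroup G).subtype := by
        rw [_root_.commutator, Subgroup.map_commutator, ← MonoidHom.range_eq_map,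
          Subgroup.range_subtype]
      obtain ⟨c, hc, hce⟩ := h3 ▸ hw.1
      have hcy : c = ⟨w, hwP⟩ := Subtype.ext hce
      exact hcy ▸ hc
    exact Subgroup.subgroupOf_eq_top.mp h1
  -- so `Q1` centralises `V`
  have hQ1V : Q1 ≤ V := fun x hx => hCV (Subgroup.mem_centralizer_iff.mpr fun v hv => by
    have h1 : v * x * v⁻¹ * x⁻¹ ∈ V := by
      have := V.mul_mem hv ((inferInstance : V.Normal).conj_mem _ (V.inv_mem hv) x)
      simpa [mul_assoc] using this
    have h2 : v * x * v⁻¹ * x⁻¹ ∈ Q1 :=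
      Q1.mul_mem ((Subgroup.mem_normalizer_iff.mp (hPN (hVP hv)) x).mp hx) (Q1.inv_mem hx)
    have h3 : v * x * v⁻¹ * x⁻¹ = 1 := by
      obtain ⟨k, hk⟩ := IsPGroup.iff_card.mp hQ1.isPGroup
      refine orderOf_eq_one_iff.mp (Nat.eq_one_of_dvd_coprimes
        ((coprime_of_not_dvd hVnq).pow_left k) ?_ ?_)
      · rw [← hk, ← Subgroup.orderOf_mk _ h2]; exact orderOf_dvd_natCard _
      · rw [← Subgroup.orderOf_mk _ h1]; exact orderOf_dvd_natCard _
    calc v * x = v * x * v⁻¹ * x⁻¹ * (x * v) := by group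
      _ = x * v := by rw [h3, one_mul])
  apply hQbne
  rw [← Subgroup.map_comap_eq_self_of_surjective hπ Qb, ← hM2def, Subgroup.map_eq_bot_iff,
    QuotientGroup.ker_mk', ← hM2sup]
  exact sup_le le_rfl hQ1V

/-- The degree criterion. -/
theorem not_dvd_card_of_degrees (hps : IsPSolvable p G) (hqs : IsPSolvable q G)
    (hO : pPrimeCore p G = ⊥) (hne : p ≠ q)
    (hyp : ∀ χ : IrrCharacter G, ¬ p ∣ charDegree (χ : G → ℂ) → ¬ q ∣ charDegree (χ : G → ℂ)) :
    ¬ q ∣ Nat.card G := by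
  induction hn : Nat.card G using Nat.strong_induction_on generalizing G with
  | _ n ih =>
    subst hn
    intro hd
    set V := pCore p G with hVdef
    set L := pPrimeCore p (G ⧸ V) with hLdef
    by_cases hL : q ∣ Nat.card L
    · exact false_of_dvd_core hps hqs hO hyp hL hne
    haveI : Nontrivial G := by
      rw [← Finite.one_lt_card_iff_nontrivial]
      exact lt_of_lt_of_le hq.out.one_lt (Nat.le_of_dvd Nat.card_pos hd)
    have hV : V ≠ ⊥ := PSolv.pCore_ne_bot_of_pPrimeCore_eq_bot hps hO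
    have hlt : Nat.card ((G ⧸ V) ⧸ L) < Nat.card G := by
      calc Nat.card ((G ⧸ V) ⧸ L) ≤ Nat.card (G ⧸ V) :=
            Nat.card_le_card_of_surjective _ (QuotientGroup.mk'_surjective L)
        _ < Nat.card G := by
            rw [← Subgroup.index_eq_card, ← V.card_mul_index]
            exact lt_mul_of_one_lt_left (Nat.pos_of_ne_zero Subgroup.index_ne_zero_of_finite)
              ((Subgroup.one_lt_card_iff_ne_bot V).mpr hV)
    refine ih _ hlt (PSolv.isPSolvable_quotient (PSolv.isPSolvable_quotient hps V) L)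
      (PSolv.isPSolvable_quotient (PSolv.isPSolvable_quotient hqs V) L)
      Cores.pPrimeCore_quotient_pPrimeCore_eq_bot (fun χ hχ => ?_) rfl ?_
    · exact hyp ⟨fun g => (χ : (G ⧸ V) ⧸ L → ℂ) (((QuotientGroup.mk' L).comp (QuotientGroup.mk' V)) g),
        isIrrCharacter_comp χ.2 _ ((QuotientGroup.mk'_surjective L).comp
          (QuotientGroup.mk'_surjective V))⟩ (by simpa [charDegree] using hχ) |> fun h => by
        simpa [charDegree] using h
    · have hVq : ¬ q ∣ Nat.card V := fun h => hq.out.ne_one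
        (Nat.eq_one_of_dvd_coprimes (coprime_pGroup hne Cores.pCore_isPGroup) h dvd_rfl)
      have h1 : q ∣ Nat.card (G ⧸ V) := by
        rw [← V.card_mul_index, Subgroup.index_eq_card] at hd
        exact (hq.out.dvd_mul.mp hd).resolve_left hVq
      rw [← L.card_mul_index, Subgroup.index_eq_card] at h1
      exact (hq.out.dvd_mul.mp h1).resolve_left hL

end Cfsg.Agent.BlockNilp
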