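import Cfsg.Agent.BlockNilp.TwoPrimes

/-!
# Equal sets of `p'`- and `q'`-degree characters in two principal blocks
-/

set_option autoImplicit false
set_option linter.style.haveILetI false

namespace Cfsg.Agent.BlockNilp

open Cfsg Cfsg.Agent.Char Cfsg.Agent.GlauberCorr

universe u

variable {G : Type u} [Group G] [Finite G] {p q : ℕ} [hp : Fact p.Prime] [hq : Fact q.Prime]

/-- The case of trivial common core. -/
theorem not_dvd_of_equal_sets_core_free (hne : p ≠ q) (hps : IsPSolvable p G)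
    (hqs : IsPSolvable q G) (hdisj : pPrimeCore p G ⊓ pPrimeCore q G = ⊥)
    (h : ∀ χ : IrrCharacter G,
      ((∀ n ∈ pPrimeCore p G, (χ : G → ℂ) n = (χ : G → ℂ) 1) ∧ ¬ p ∣ charDegree (χ : G → ℂ)) ↔
        ((∀ n ∈ pPrimeCore q G, (χ : G → ℂ) n = (χ : G → ℂ) 1) ∧ ¬ q ∣ charDegree (χ : G → ℂ))) :
    ¬ p ∣ Nat.card G := by
  classical
  obtain ⟨P⟩ : Nonempty (Sylow p G) := inferInstance
  obtain ⟨Q⟩ : Nonempty (Sylow q G) := inferInstance
  refine not_dvd_card_of_kernels hne hps hqs hdisj P Q ?_ ?_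
  · intro N hN hNp hNY
    haveI := hN
    exact le_commutator_of_kernels_over (pPrimeCore p G) Cores.not_dvd_card_pPrimeCore N hNp
      (fun χ hx hd y hy => ((h χ).mp ⟨hx, hd⟩).1 y (hNY hy)) P
  · intro N hN hNq hNX
    haveI := hN
    exact le_commutator_of_kernels_over (pPrimeCore q G) Cores.not_dvd_card_pPrimeCore N hNq
      (fun χ hx hd y hy => ((h χ).mpr ⟨hx, hd⟩).1 y (hNX hy)) Q

theorem eq_of_equal_sets (hp' : p ∣ Nat.card G) (hps : IsPSolvable p G) (hqs : IsPSolvable q G)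
    {Mp Mq : Ideal AlgInt} (hMp : IsPModular p Mp) (hMq : IsPModular q Mq)
    (h : ∀ χ : IrrCharacter G, (χ ∈ principalBlock Mp G ∧ ¬ p ∣ charDegree (χ : G → ℂ)) ↔
      (χ ∈ principalBlock Mq G ∧ ¬ q ∣ charDegree (χ : G → ℂ))) : p = q := by
  classical
  by_contra hne
  set X := pPrimeCore p G with hX
  set Y := pPrimeCore q G with hY
  set W := X ⊓ Y with hW
  haveI : W.Normal := Subgroup.normal_inf_normal X Y
  let π := QuotientGroup.mk' W
  have hπ : Function.Surjective π := QuotientGroup.mk'_surjective W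
  have hWp : (Nat.card W).Coprime p :=
    Cores.pPrimeCore_coprime.coprime_dvd_left (Subgroup.card_dvd_of_le (inf_le_left : W ≤ X))
  have hWq : (Nat.card W).Coprime q :=
    Cores.pPrimeCore_coprime.coprime_dvd_left (Subgroup.card_dvd_of_le (inf_le_right : W ≤ Y))
  have hXb : pPrimeCore p (G ⧸ W) = X.map π := Cores.pPrimeCore_quotient hWp
  have hYb : pPrimeCore q (G ⧸ W) = Y.map π := Cores.pPrimeCore_quotient hWq
  refine not_dvd_of_equal_sets_core_free (G := G ⧸ W) hne (PSolv.isPSolvable_quotient hps W)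
    (PSolv.isPSolvable_quotient hqs W) ?_ ?_ ?_
  · rw [hXb, hYb, eq_bot_iff]
    rintro _ ⟨⟨x, hx, rfl⟩, ⟨y, hy, hxy⟩⟩
    rw [Subgroup.mem_bot]
    refine (QuotientGroup.eq_one_iff x).mpr ⟨hx, ?_⟩
    have h1 : y⁻¹ * x ∈ W := QuotientGroup.eq.mp hxy
    simpa using Y.mul_mem hy h1.2
  · intro χ
    let χ' : IrrCharacter G := ⟨fun g => (χ : G ⧸ W → ℂ) (π g), isIrrCharacter_comp χ.2 π hπ⟩
    have hd : charDegree (χ' : G → ℂ) = charDegree (χ : G ⧸ W → ℂ) := rfl
    have key : ∀ N : Subgroup G, (∀ n ∈ N, (χ' : G → ℂ) n = (χ' : G → ℂ) 1) ↔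
        ∀ n ∈ N.map π, (χ : G ⧸ W → ℂ) n = (χ : G ⧸ W → ℂ) 1 := by
      intro N
      constructor
      · rintro hn _ ⟨n, hn', rfl⟩
        have h1 := hn n hn'
        change (χ : G ⧸ W → ℂ) (π n) = (χ : G ⧸ W → ℂ) (π 1) at h1
        rwa [map_one] at h1
      · intro hn n hn'
        change (χ : G ⧸ W → ℂ) (π n) = (χ : G ⧸ W → ℂ) (π 1)
        rw [map_one]
        exact hn _ ⟨n, hn', rfl⟩
    rw [hXb, hYb, ← key, ← key, ← hd, ← mem_principalBlock_iff_of_pSolvable hMp hps,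
      ← mem_principalBlock_iff_of_pSolvable hMq hqs]
    exact h χ'
  · rw [← W.card_mul_index] at hp'
    rw [← Subgroup.index_eq_card]
    exact (hp.out.dvd_mul.mp hp').resolve_left (Nat.Prime.coprime_iff_not_dvd hp.out |>.mp hWp.symm)

end Cfsg.Agent.BlockNilp
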